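import Groth.Agent.Pi1.H391.Stmts2
import Groth.Agent.Pi1.H415.SHSplit

/-!
# Subtask (F3) of S3689: splitting by an extension to a strictly henselian local ring
-/

set_option autoImplicit false

universe u

open TensorProduct IsLocalRing CategoryTheory AlgebraicGeometry

namespace Groth.Agent.Pi1.H644.SplitOfExt

/-- A field valued point of a finite etale algebra over a strictly henselian local ring lies on a section. -/
theorem exists_algHom (B E : Type u) [CommRing B] [HenselianLocalRing B] [IsSepClosed (ResidueField B)]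
    [CommRing E] [Algebra B E] [Module.Finite B E] [Algebra.Etale B E] (Ω : Type u) [Field Ω] (e : E →+* Ω) :
    ∃ s : E →ₐ[B] B, (e.comp (algebraMap B E)).comp s.toRingHom = e := by
  let p : Spec (CommRingCat.of E) ⟶ Spec (CommRingCat.of B) := Spec.map (CommRingCat.ofHom (algebraMap B E))
  have h1 : IsFinite p := by
    rw [IsFinite.SpecMap_iff]
    exact RingHom.finite_algebraMap.mpr inferInstance
  have h2 : Etale p := by
    rw [HasRingHomProperty.Spec_iff (P := @Etale)]
    exact RingHom.etale_algebraMap.mpr inferInstance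
  obtain ⟨s, hs, hs'⟩ := Groth.Agent.Pi1.H415.SHSplit.exists_section_comp p Ω
    (Spec.map (CommRingCat.ofHom e))
  obtain ⟨g, rfl⟩ := Spec.map_surjective s
  have h3 : CommRingCat.ofHom (algebraMap B E) ≫ g = 𝟙 _ := by
    apply Spec.map_injective
    rw [Spec.map_comp, Spec.map_id]
    exact hs
  have h4 : g ≫ CommRingCat.ofHom (algebraMap B E) ≫ CommRingCat.ofHom e = CommRingCat.ofHom e := by
    apply Spec.map_injective
    rw [Spec.map_comp, Spec.map_comp]
    exact hs'
  refine ⟨{ g.hom with commutes' := fun r => ?_ }, ?_⟩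
  · exact congrArg (fun t : CommRingCat.of B ⟶ CommRingCat.of B => t.hom r) h3
  · ext x
    exact congrArg (fun t : CommRingCat.of E ⟶ CommRingCat.of Ω => t.hom x) h4

/-- (F3) -/
theorem splitOfExt : Groth.Agent.Pi1.H391.Stmts2.SplitOfExt.{u} := by
  intro A C A' B E _ _ _ _ _ _ _ _ _ _ _ _ _ θ Ω _ c a hca
  letI : Algebra A' Ω := a.toAlgebra
  letI : Algebra A Ω := (a.comp (algebraMap A A')).toAlgebra
  haveI : IsScalarTower A A' Ω := IsScalarTower.of_algebraMap_eq fun _ => rfl
  let c' : C →ₐ[A] Ω := { c with commutes' := fun r => RingHom.congr_fun hca r }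
  let ψ : A' ⊗[A] C →ₐ[A'] Ω := Algebra.TensorProduct.lift (Algebra.ofId A' Ω) c' (fun _ _ => Commute.all _ _)
  let e : E →+* Ω := (ψ.toRingHom.comp θ.toAlgHom.toRingHom).comp
    (Algebra.TensorProduct.includeRight : E →ₐ[B] A' ⊗[B] E).toRingHom
  obtain ⟨s, hs⟩ := exists_algHom B E Ω e
  have heB : e.comp (algebraMap B E) = a.comp (algebraMap B A') := by
    ext b
    have h1 : (Algebra.TensorProduct.includeRight : E →ₐ[B] A' ⊗[B] E) (algebraMap B E b) =
        algebraMap A' (A' ⊗[B] E) (algebraMap B A' b) := by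
      rw [AlgHom.commutes]
      rfl
    change ψ (θ ((Algebra.TensorProduct.includeRight : E →ₐ[B] A' ⊗[B] E) (algebraMap B E b))) = _
    rw [h1, AlgEquiv.commutes, AlgHom.commutes]
    rfl
  let σ : A' ⊗[B] E →ₐ[A'] A' :=
    Algebra.TensorProduct.lift (AlgHom.id A' A') ((Algebra.ofId B A').comp s) (fun _ _ => Commute.all _ _)
  have hσ : ∀ z : A' ⊗[B] E, a (σ z) = ψ (θ z) := by
    intro z
    induction z with
    | zero => simp
    | add x y hx hy => rw [map_add, map_add, map_add, map_add, hx, hy]
    | tmul x y =>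
      have h1 : σ (x ⊗ₜ[B] y) = x * algebraMap B A' (s y) := by
        simp [σ, Algebra.ofId_apply]
      have h2 : (x ⊗ₜ[B] y : A' ⊗[B] E) = algebraMap A' (A' ⊗[B] E) x *
          (Algebra.TensorProduct.includeRight : E →ₐ[B] A' ⊗[B] E) y := by
        simp [Algebra.TensorProduct.algebraMap_apply]
      rw [h1, h2, map_mul, map_mul, AlgEquiv.commutes, map_mul, AlgHom.commutes]
      have h3 : a (algebraMap B A' (s y)) = e y := by
        have h4 := RingHom.congr_fun hs y
        have h5 := RingHom.congr_fun heB (s y)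
        change a (algebraMap B A' (s y)) = _
        rw [← h4]
        exact h5.symm
      rw [h3]
      rfl
  refine ⟨((σ.comp θ.symm.toAlgHom).restrictScalars A).comp
    (Algebra.TensorProduct.includeRight : C →ₐ[A] A' ⊗[A] C), ?_⟩
  ext x
  change a (σ (θ.symm ((1 : A') ⊗ₜ[A] x))) = c x
  rw [hσ, AlgEquiv.apply_symm_apply]
  change Algebra.TensorProduct.lift (Algebra.ofId A' Ω) c' (fun _ _ => Commute.all _ _) ((1 : A') ⊗ₜ[A] x) = c x
  rw [Algebra.TensorProduct.lift_tmul, map_one, one_mul]
  rfl

end Groth.Agent.Pi1.H644.SplitOfExt
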